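import Cfsg.Agent.H876.G2U.Main0
import Cfsg.Agent.H393.G2.PPt
import Cfsg.Agent.H393.G2.SUFacts
import Cfsg.Agent.H385.G2.CenSl

/-!
# `MFacts e` for an element `e` without split discriminant: `MK e ≅ SU(3, q)` (helper876)
-/

set_option autoImplicit false

namespace Cfsg.Agent.H876.G2U

open Cfsg.Lie Cfsg.Agent.H161.Oct Cfsg.Agent.H566.G2

/-- the pointwise stabiliser of a subfield `F[e]` of the octonions, `|F| ≥ 3` -/
theorem mfacts_ns {F : Type} [Field F] [Finite F] (hq : 3 ≤ Nat.card F) {e : V F}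
    (h : ∀ l : F, l ^ 2 - tr e * l + nm e ≠ 0) : MFacts e :=
  mfacts_of_quad hq h
    (fun hq hq1 s hs B hB hd => Cfsg.Agent.H393.G2.exists_PPt hq hq1 s hs B hB hd)
    (fun s hs hss A => Cfsg.Agent.H393.G2.mem_SU_iff s hs hss A)
    (fun hq hq3 _ _ φ => Cfsg.Agent.H393.G2.su_facts hq hq3 φ)
    (fun hz hz0 _ hD A1 A2 A3 h1 h2 h3 c1 c2 c3 =>
      Cfsg.Agent.H385.G2.cen_sl hz hz0 hD A1 A2 A3 h1 h2 h3 c1 c2 c3)

end Cfsg.Agent.H876.G2U
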