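import Cfsg.Agent.H566.G2.Defs

/-!
# The quadratic extension defined by an element without split discriminant (helper876)
-/

set_option autoImplicit false

namespace Cfsg.Agent.H876.G2U

open Polynomial

/-- data of a quadratic extension with its involution -/
structure Quad (F : Type) [Field F] (t n : F) where
  L : Type
  [fld : Field L]
  [fin : Finite L]
  φ : F →+* L
  s : L →+* L
  lam : L
  card : Nat.card L = Nat.card F ^ 2
  s_eq : ∀ x, s x = x ^ Nat.card F
  ss : ∀ x, s (s x) = x
  fix : ∀ x, s x = x → ∃ a, φ a = x
  s_φ : ∀ a, s (φ a) = φ a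
  lam_ne : lam - s lam ≠ 0
  add : lam + s lam = φ t
  mul : lam * s lam = φ n

theorem exists_quad {F : Type} [Field F] [Finite F] {t n : F}
    (h : ∀ l : F, l ^ 2 - t * l + n ≠ 0) : Nonempty (Quad F t n) := by
  classical
  have : Fintype F := Fintype.ofFinite F
  set f : F[X] := X ^ 2 - C t * X + C n with hf
  have hdeg : f.natDegree = 2 := by rw [hf]; compute_degree!
  have hmon : f.Monic := by
    rw [hf]
    monicity!
  have hf0 : f ≠ 0 := hmon.ne_zero
  have hirr : Irreducible f := by
    apply irreducible_of_degree_le_three_of_not_isRoot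
    · rw [hdeg]; decide
    · intro x hx
      apply h x
      rw [IsRoot, hf] at hx
      simpa using hx
  have : Fact (Irreducible f) := ⟨hirr⟩
  let L := AdjoinRoot f
  let pb := AdjoinRoot.powerBasis hf0
  have : FiniteDimensional F L := pb.finite
  have hrk : Module.finrank F L = 2 := by
    rw [pb.finrank]
    exact hdeg
  have : Finite L := Module.finite_of_finite F
  have : Fintype L := Fintype.ofFinite L
  have hcardL : Fintype.card L = Fintype.card F ^ 2 := by
    rw [Module.card_eq_pow_finrank (K := F), hrk]
  set φ : F →+* L := algebraMap F L with hφ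
  set s : L →+* L := (FiniteField.frobeniusAlgHom F L).toRingHom with hs
  have s_eq : ∀ x, s x = x ^ Nat.card F := fun x => by
    rw [Nat.card_eq_fintype_card]; rfl
  have ss : ∀ x, s (s x) = x := by
    intro x
    rw [s_eq, s_eq, ← pow_mul, ← pow_two, Nat.card_eq_fintype_card, ← hcardL]
    exact FiniteField.pow_card x
  have s_φ : ∀ a, s (φ a) = φ a := by
    intro a
    rw [s_eq, ← map_pow, Nat.card_eq_fintype_card, FiniteField.pow_card]
  have fix : ∀ x, s x = x → ∃ a, φ a = x := by
    intro x hx
    by_contra hcon
    push Not at hcon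
    set S : Finset L := insert x (Finset.univ.image φ) with hS
    have hcS : S.card = Fintype.card F + 1 := by
      rw [hS, Finset.card_insert_of_notMem, Finset.card_image_of_injective _ φ.injective,
        Finset.card_univ]
      intro h1
      obtain ⟨a, -, ha⟩ := Finset.mem_image.1 h1
      exact hcon a ha
    have hq : 1 < Fintype.card F := Fintype.one_lt_card
    have hp0 : (X ^ Fintype.card F - X : L[X]) ≠ 0 := FiniteField.X_pow_card_sub_X_ne_zero L hq
    have hle := card_le_degree_of_subset_roots (R := L) (p := X ^ Fintype.card F - X) (Z := S) (by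
      intro y hy
      rw [mem_roots hp0, IsRoot, eval_sub, eval_pow, eval_X, sub_eq_zero]
      rw [Finset.mem_val, hS, Finset.mem_insert] at hy
      rcases hy with hy | hy
      · rw [hy]
        have := hx
        rw [s_eq, Nat.card_eq_fintype_card] at this
        exact this
      · obtain ⟨a, -, ha⟩ := Finset.mem_image.1 hy
        rw [← ha, ← map_pow, FiniteField.pow_card])
    rw [hcS, FiniteField.X_pow_card_sub_X_natDegree_eq L hq] at hle
    omega
  set lam : L := AdjoinRoot.root f with hlam
  have hroot : lam ^ 2 - φ t * lam + φ n = 0 := by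
    have h1 : (AdjoinRoot.mk f) (X ^ 2 - C t * X + C n) = 0 := AdjoinRoot.mk_self
    rw [map_add, map_sub, map_mul, map_pow, AdjoinRoot.mk_X, AdjoinRoot.mk_C, AdjoinRoot.mk_C] at h1
    exact h1
  have lam_ne : lam - s lam ≠ 0 := by
    intro h1
    obtain ⟨a, ha⟩ := fix lam (sub_eq_zero.1 h1).symm
    apply h a
    apply φ.injective
    rw [map_zero, map_add, map_sub, map_mul, map_pow, ha]
    exact hroot
  have hroot' : (s lam) ^ 2 - φ t * s lam + φ n = 0 := by
    have := congrArg s hroot
    rw [map_add, map_sub, map_mul, map_pow, s_φ, s_φ, map_zero] at this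
    exact this
  have hadd : lam + s lam = φ t := by
    apply mul_left_cancel₀ lam_ne
    linear_combination hroot - hroot'
  have hmul : lam * s lam = φ n := by
    rw [← hadd] at hroot
    linear_combination -hroot
  exact ⟨⟨L, φ, s, lam, by rw [Nat.card_eq_fintype_card, Nat.card_eq_fintype_card]; exact hcardL,
    s_eq, ss, fix, s_φ, lam_ne, hadd, hmul⟩⟩

end Cfsg.Agent.H876.G2U
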